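import Cfsg.Agent.H247.EPF.HasL

/-!
# `7 : 3` in the classical groups over the field with two elements (helper247)
-/

set_option autoImplicit false
set_option linter.unusedSectionVars false

namespace Cfsg.Agent.H247.EPF

open Matrix

section SLn

variable {F : Type*} [Field F] (ι : ZMod 2 →+* F)

/-- the block embedding -/
def blk (k : ℕ) : L3 →* Matrix.SpecialLinearGroup (Fin (3 + k)) F where
  toFun A := ⟨Matrix.reindex finSumFinEquiv finSumFinEquiv
    (fromBlocks ((A : Matrix (Fin 3) (Fin 3) (ZMod 2)).map ι) 0 0 (1 : Matrix (Fin k) (Fin k) F)), by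
      rw [Matrix.det_reindex_self, Matrix.det_fromBlocks_zero₂₁, Matrix.det_one, mul_one]
      have h := RingHom.map_det ι (A : Matrix (Fin 3) (Fin 3) (ZMod 2))
      rw [A.2, map_one] at h
      exact h.symm⟩
  map_one' := by
    apply Subtype.ext
    show Matrix.reindex _ _ (fromBlocks ((1 : Matrix (Fin 3) (Fin 3) (ZMod 2)).map ι) 0 0 1) = 1
    rw [Matrix.map_one ι (map_zero ι) (map_one ι), fromBlocks_one]
    exact Matrix.submatrix_one_equiv _
  map_mul' A B := by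
    apply Subtype.ext
    show Matrix.reindex _ _ (fromBlocks (((A : Matrix (Fin 3) (Fin 3) (ZMod 2)) * (B : Matrix (Fin 3) (Fin 3) (ZMod 2))).map ι)
      0 0 1) = Matrix.reindex _ _ (fromBlocks ((A : Matrix (Fin 3) (Fin 3) (ZMod 2)).map ι) 0 0 1) *
        Matrix.reindex _ _ (fromBlocks ((B : Matrix (Fin 3) (Fin 3) (ZMod 2)).map ι) 0 0 1)
    rw [Matrix.reindex_apply, Matrix.reindex_apply, Matrix.reindex_apply, Matrix.submatrix_mul_equiv,
      fromBlocks_multiply, Matrix.map_mul]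
    simp

theorem blk_ne (k : ℕ) : blk ι k x0 ≠ 1 := by
  intro h
  have h1 := congrArg Subtype.val h
  have h2 : Matrix.reindex finSumFinEquiv finSumFinEquiv
    (fromBlocks ((x0 : Matrix (Fin 3) (Fin 3) (ZMod 2)).map ι) 0 0 (1 : Matrix (Fin k) (Fin k) F)) =
      (1 : Matrix (Fin (3 + k)) (Fin (3 + k)) F) := h1
  have h3 := congrFun (congrFun h2 (finSumFinEquiv (Sum.inl 0))) (finSumFinEquiv (Sum.inl 0))
  rw [Matrix.reindex_apply, Matrix.submatrix_apply, Equiv.symm_apply_apply, fromBlocks_apply₁₁, Matrix.one_apply_eq,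
    Matrix.map_apply] at h3
  have h4 : (x0 : Matrix (Fin 3) (Fin 3) (ZMod 2)) 0 0 = 0 := rfl
  rw [h4, map_zero] at h3
  exact zero_ne_one h3

include ι in
theorem hasL_SL {n : ℕ} (hn : 3 ≤ n) : HasL (Matrix.SpecialLinearGroup (Fin n) F) := by
  obtain ⟨k, rfl⟩ := Nat.exists_eq_add_of_le hn
  exact ⟨blk ι k, blk_ne ι k⟩

end SLn

section Double

variable {F : Type*} [Field F] {m : ℕ}

/-- `B ↦ diag (B, B⁻ᵀ)` -/
def dbl (B : Matrix.SpecialLinearGroup (Fin m) F) : Matrix (Fin m ⊕ Fin m) (Fin m ⊕ Fin m) F :=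
  fromBlocks (B : Matrix (Fin m) (Fin m) F) 0 0 ((B⁻¹ : Matrix.SpecialLinearGroup (Fin m) F) : Matrix (Fin m) (Fin m) F)ᵀ

theorem dbl_one : dbl (1 : Matrix.SpecialLinearGroup (Fin m) F) = 1 := by
  rw [dbl, inv_one, Matrix.SpecialLinearGroup.coe_one, Matrix.transpose_one, fromBlocks_one]

theorem dbl_mul (A B : Matrix.SpecialLinearGroup (Fin m) F) : dbl (A * B) = dbl A * dbl B := by
  rw [dbl, dbl, dbl, fromBlocks_multiply, _root_.mul_inv_rev, Matrix.SpecialLinearGroup.coe_mul,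
    Matrix.SpecialLinearGroup.coe_mul, Matrix.transpose_mul]
  simp

theorem dbl_inj {A : Matrix.SpecialLinearGroup (Fin m) F} (h : dbl A = 1) : A = 1 := by
  apply Subtype.ext
  rw [dbl, ← fromBlocks_one, fromBlocks_inj] at h
  exact h.1

theorem coe_mul_inv (B : Matrix.SpecialLinearGroup (Fin m) F) :
    (B : Matrix (Fin m) (Fin m) F) * ((B⁻¹ : Matrix.SpecialLinearGroup (Fin m) F) : Matrix (Fin m) (Fin m) F) = 1 := by
  rw [← Matrix.SpecialLinearGroup.coe_mul, mul_inv_cancel, Matrix.SpecialLinearGroup.coe_one]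

theorem coe_inv_mul (B : Matrix.SpecialLinearGroup (Fin m) F) :
    ((B⁻¹ : Matrix.SpecialLinearGroup (Fin m) F) : Matrix (Fin m) (Fin m) F) * (B : Matrix (Fin m) (Fin m) F) = 1 := by
  rw [← Matrix.SpecialLinearGroup.coe_mul, inv_mul_cancel, Matrix.SpecialLinearGroup.coe_one]

theorem dbl_mem (B : Matrix.SpecialLinearGroup (Fin m) F) : dbl B ∈ Matrix.symplecticGroup (Fin m) F := by
  rw [SymplecticGroup.mem_iff, dbl, Matrix.J, fromBlocks_transpose, fromBlocks_multiply, fromBlocks_multiply]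
  simp only [Matrix.transpose_zero, Matrix.transpose_transpose, Matrix.mul_zero, Matrix.zero_mul, add_zero, zero_add,
    Matrix.mul_one, Matrix.mul_neg, Matrix.neg_mul]
  congr 1
  · rw [coe_mul_inv]
  · rw [← Matrix.transpose_mul, coe_mul_inv, Matrix.transpose_one]
  · exact neg_zero

/-- `SL_m → Sp_{2m}` -/
def toSp : Matrix.SpecialLinearGroup (Fin m) F →* Matrix.symplecticGroup (Fin m) F where
  toFun B := ⟨dbl B, dbl_mem B⟩
  map_one' := Subtype.ext dbl_one
  map_mul' A B := Subtype.ext (dbl_mul A B)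

theorem toSp_inj : Function.Injective (toSp (F := F) (m := m)) := by
  rw [injective_iff_map_eq_one]
  intro A hA
  exact dbl_inj (congrArg Subtype.val hA)

/-- `SL_m → GL_{2m}` -/
def dblU : Matrix.SpecialLinearGroup (Fin m) F →* Matrix.GeneralLinearGroup (Fin m ⊕ Fin m) F where
  toFun B := ⟨dbl B, dbl B⁻¹, by rw [← dbl_mul, mul_inv_cancel, dbl_one], by rw [← dbl_mul, inv_mul_cancel, dbl_one]⟩
  map_one' := Units.ext dbl_one
  map_mul' A B := Units.ext (dbl_mul A B)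

theorem dbl_form (B : Matrix.SpecialLinearGroup (Fin m) F) (u : Fin m ⊕ Fin m → F) :
    ∑ i : Fin m, (dbl B *ᵥ u) (.inl i) * (dbl B *ᵥ u) (.inr i) = ∑ i : Fin m, u (.inl i) * u (.inr i) := by
  have h1 : dbl B *ᵥ u = Sum.elim ((B : Matrix (Fin m) (Fin m) F) *ᵥ (u ∘ Sum.inl))
      (((B⁻¹ : Matrix.SpecialLinearGroup (Fin m) F) : Matrix (Fin m) (Fin m) F)ᵀ *ᵥ (u ∘ Sum.inr)) := by
    rw [dbl, Matrix.fromBlocks_mulVec, Matrix.zero_mulVec, Matrix.zero_mulVec, add_zero, zero_add]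
  rw [h1]
  show ((B : Matrix (Fin m) (Fin m) F) *ᵥ (u ∘ Sum.inl)) ⬝ᵥ
    (((B⁻¹ : Matrix.SpecialLinearGroup (Fin m) F) : Matrix (Fin m) (Fin m) F)ᵀ *ᵥ (u ∘ Sum.inr)) = (u ∘ Sum.inl) ⬝ᵥ (u ∘ Sum.inr)
  rw [Matrix.mulVec_transpose, dotProduct_comm, ← Matrix.dotProduct_mulVec, Matrix.mulVec_mulVec, coe_inv_mul,
    Matrix.one_mulVec, dotProduct_comm]

theorem dblU_mem (B : Matrix.SpecialLinearGroup (Fin m) F) : dblU B ∈ isometryGroup F (quadFormPlus m F) := by
  intro u _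
  exact dbl_form B u

/-- `SL_m → O⁺_{2m}` -/
def toOp : Matrix.SpecialLinearGroup (Fin m) F →* isometryGroup F (quadFormPlus m F) :=
  dblU.codRestrict _ dblU_mem

theorem toOp_inj : Function.Injective (toOp (F := F) (m := m)) := by
  rw [injective_iff_map_eq_one]
  intro A hA
  exact dbl_inj (congrArg (fun x => ((x.1 : Matrix.GeneralLinearGroup (Fin m ⊕ Fin m) F) :
    Matrix (Fin m ⊕ Fin m) (Fin m ⊕ Fin m) F)) hA)

/-- `B ↦ diag (B, B⁻ᵀ, 1)` -/
def trp (B : Matrix.SpecialLinearGroup (Fin m) F) : Matrix ((Fin m ⊕ Fin m) ⊕ Fin 2) ((Fin m ⊕ Fin m) ⊕ Fin 2) F :=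
  fromBlocks (dbl B) 0 0 1

theorem trp_one : trp (1 : Matrix.SpecialLinearGroup (Fin m) F) = 1 := by
  rw [trp, dbl_one, fromBlocks_one]

theorem trp_mul (A B : Matrix.SpecialLinearGroup (Fin m) F) : trp (A * B) = trp A * trp B := by
  rw [trp, trp, trp, fromBlocks_multiply, dbl_mul]
  simp

theorem trp_inj {A : Matrix.SpecialLinearGroup (Fin m) F} (h : trp A = 1) : A = 1 := by
  rw [trp, ← fromBlocks_one, fromBlocks_inj] at h
  exact dbl_inj h.1

/-- `SL_m → GL_{2m+2}` -/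
def trpU : Matrix.SpecialLinearGroup (Fin m) F →* Matrix.GeneralLinearGroup ((Fin m ⊕ Fin m) ⊕ Fin 2) F where
  toFun B := ⟨trp B, trp B⁻¹, by rw [← trp_mul, mul_inv_cancel, trp_one], by rw [← trp_mul, inv_mul_cancel, trp_one]⟩
  map_one' := Units.ext trp_one
  map_mul' A B := Units.ext (trp_mul A B)

theorem trpU_mem (a b : F) (B : Matrix.SpecialLinearGroup (Fin m) F) :
    trpU B ∈ isometryGroup F (quadFormMinus m F a b) := by
  intro u _
  have h1 : trp B *ᵥ u = Sum.elim (dbl B *ᵥ (u ∘ Sum.inl)) (u ∘ Sum.inr) := by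
    rw [trp, Matrix.fromBlocks_mulVec, Matrix.zero_mulVec, Matrix.zero_mulVec, add_zero, zero_add, Matrix.one_mulVec]
  show quadFormMinus m F a b (trp B *ᵥ u) = quadFormMinus m F a b u
  rw [h1]
  have h2 := dbl_form B (u ∘ Sum.inl)
  simp only [quadFormMinus, Sum.elim_inl, Sum.elim_inr, Function.comp_apply] at h2 ⊢
  rw [h2]

/-- `SL_m → O⁻_{2m+2}` -/
def toOm (a b : F) : Matrix.SpecialLinearGroup (Fin m) F →* isometryGroup F (quadFormMinus m F a b) :=
  trpU.codRestrict _ (trpU_mem a b)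

theorem toOm_inj (a b : F) : Function.Injective (toOm (F := F) (m := m) a b) := by
  rw [injective_iff_map_eq_one]
  intro A hA
  exact trp_inj (congrArg (fun x => ((x.1 : Matrix.GeneralLinearGroup ((Fin m ⊕ Fin m) ⊕ Fin 2) F) :
    Matrix ((Fin m ⊕ Fin m) ⊕ Fin 2) ((Fin m ⊕ Fin m) ⊕ Fin 2) F)) hA)

end Double

section Rows

variable {F : Type*} [Field F] (ι : ZMod 2 →+* F)

include ι

theorem has_psl {n : ℕ} (hn : 3 ≤ n) : Has73 (Matrix.ProjectiveSpecialLinearGroup (Fin n) F) :=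
  (hasL_SL ι hn).has.quot

theorem has_psp {m : ℕ} (hm : 3 ≤ m) : Has73 (PSp m F) :=
  ((hasL_SL ι hm).map toSp toSp_inj).has.quot

theorem has_plus {m : ℕ} (hm : 3 ≤ m) : Has73 (POmega F (quadFormPlus m F)) :=
  ((hasL_SL ι hm).map toOp toOp_inj).comm.quot

theorem has_minus {m : ℕ} (hm : 3 ≤ m) (a b : F) : Has73 (POmega F (quadFormMinus m F a b)) :=
  ((hasL_SL ι hm).map (toOm a b) (toOm_inj a b)).comm.quot

end Rows

end Cfsg.Agent.H247.EPF
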