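import Mathlib
import Cfsg.Prelude.Def_Classical
import Cfsg.Agent.H155.Unit

/-!
# `7 : 3` in groups over the field with two elements (helper247)

`Has73 T` : an element `x` of order `7` and `g` with `g x g⁻¹ = x ^ 2`. `HasL T` : a homomorphism from `SL₃(2)` to `T`, nontrivial
on the elements of order `7`.
-/

set_option autoImplicit false
set_option linter.unusedSectionVars false

namespace Cfsg.Agent.H247.EPF

open Matrix

abbrev L3 := Matrix.SpecialLinearGroup (Fin 3) (ZMod 2)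

def x0 : L3 := ⟨!![0, 0, 1; 1, 0, 1; 0, 1, 0], by decide⟩
def g0 : L3 := ⟨!![1, 0, 0; 0, 0, 1; 0, 1, 1], by decide⟩

theorem x0_ne : x0 ≠ 1 := by decide
theorem x0_seven : x0 ^ 7 = 1 := by decide
theorem g0_x0 : g0 * x0 = x0 ^ 2 * g0 := by decide

/-- an element of order `7` which is conjugate to its square -/
def Has73 (T : Type*) [Group T] : Prop := ∃ x g : T, x ≠ 1 ∧ x ^ 7 = 1 ∧ g * x * g⁻¹ = x ^ 2

/-- a nontrivial image of `SL₃(2)` -/
def HasL (T : Type*) [Group T] : Prop := ∃ f : L3 →* T, f x0 ≠ 1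

theorem HasL.has {T : Type*} [Group T] (h : HasL T) : Has73 T := by
  obtain ⟨f, hf⟩ := h
  refine ⟨f x0, f g0, hf, by rw [← map_pow, x0_seven, map_one], ?_⟩
  rw [← map_mul, g0_x0, map_mul, mul_inv_cancel_right, map_pow]

theorem Has73.map {T S : Type*} [Group T] [Group S] (h : Has73 T) (f : T →* S) (hf : Function.Injective f) :
    Has73 S := by
  obtain ⟨x, g, h1, h2, h3⟩ := h
  refine ⟨f x, f g, fun hc => h1 (hf (hc.trans f.map_one.symm)), by rw [← map_pow, h2, map_one], ?_⟩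
  rw [← map_inv, ← map_mul, ← map_mul, h3, map_pow]

theorem HasL.map {T S : Type*} [Group T] [Group S] (h : HasL T) (f : T →* S) (hf : Function.Injective f) :
    HasL S := by
  obtain ⟨j, h1⟩ := h
  exact ⟨f.comp j, fun hc => h1 (hf (hc.trans f.map_one.symm))⟩

/-- quotients by the centre -/
theorem Has73.quot {T : Type*} [Group T] (h : Has73 T) : Has73 (T ⧸ Subgroup.center T) := by
  obtain ⟨x, g, h1, h2, h3⟩ := h
  refine ⟨QuotientGroup.mk x, QuotientGroup.mk g, ?_, ?_, ?_⟩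
  · intro hc
    rw [QuotientGroup.eq_one_iff, Subgroup.mem_center_iff] at hc
    apply h1
    have h4 : g * x * g⁻¹ = x := by rw [hc g, mul_inv_cancel_right]
    rw [h4, pow_two] at h3
    exact (mul_eq_left.1 h3.symm)
  · rw [← QuotientGroup.mk_pow, h2]; rfl
  · rw [← QuotientGroup.mk_mul, ← QuotientGroup.mk_inv, ← QuotientGroup.mk_mul, h3]; rfl

/-- `g₀` is a commutator -/
theorem g0_comm : ∃ a b : L3, g0 = a * b * a⁻¹ * b⁻¹ :=
  ⟨⟨!![1, 0, 0; 0, 0, 1; 0, 1, 0], by decide⟩, g0, by decide⟩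

theorem HasL.comm {T : Type*} [Group T] (h : HasL T) : Has73 (commutator T) := by
  obtain ⟨f, hf⟩ := h
  obtain ⟨a, b, hab⟩ := g0_comm
  have hg : f g0 ∈ commutator T := by
    rw [hab, map_mul, map_mul, map_mul, map_inv, map_inv]
    exact Subgroup.commutator_mem_commutator (Subgroup.mem_top _) (Subgroup.mem_top _)
  have h2 : f g0 * f x0 * (f g0)⁻¹ = f x0 ^ 2 := by
    rw [← map_mul, g0_x0, map_mul, mul_inv_cancel_right, map_pow]
  have hx : f x0 ∈ commutator T := by
    have h3 : f x0 = f g0 * f x0 * (f g0)⁻¹ * (f x0)⁻¹ := by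
      rw [h2, pow_two, mul_inv_cancel_right]
    rw [h3]
    exact Subgroup.commutator_mem_commutator (Subgroup.mem_top _) (Subgroup.mem_top _)
  refine ⟨⟨f x0, hx⟩, ⟨f g0, hg⟩, fun hc => hf (congrArg Subtype.val hc), Subtype.ext ?_, Subtype.ext h2⟩
  show f x0 ^ 7 = 1
  rw [← map_pow, x0_seven, map_one]

end Cfsg.Agent.H247.EPF
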