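import Cfsg.Agent.H247.EPF.Unitary
import Cfsg.Agent.H542.EPX.OwnGlue
import Cfsg.Agent.H564.TD.Own
import Cfsg.Agent.H963.PQR.GTwo
import Cfsg.Agent.S1062
import Cfsg.Agent.S1063
import Cfsg.Agent.S1064
import Cfsg.Agent.S1065
import Cfsg.Agent.S1066

/-!
# The groups over the field with two elements: `7 : 3`, or `17` divides the order, or `U₄(2)` (helper247)
-/

set_option autoImplicit false
set_option linter.unusedSectionVars false

namespace Cfsg.Agent.H247.EPF

open Cfsg.Lie Cfsg.Agent.H542.EPX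

/-- the prime field -/
theorem exists_iota {F : Type*} [Field F] [Finite F] (h : 2 ∣ Nat.card F) : (2 : F) = 0 ∧ Nonempty (ZMod 2 →+* F) := by
  obtain ⟨p, hp⟩ := CharP.exists F
  have hpp : p.Prime := CharP.char_is_prime F p
  have : Fact p.Prime := ⟨hpp⟩
  let _ : Fintype F := Fintype.ofFinite F
  obtain ⟨n, -, hn⟩ := FiniteField.card F p
  rw [Nat.card_eq_fintype_card, hn] at h
  have h2 := (Nat.prime_dvd_prime_iff_eq Nat.prime_two hpp).1 (Nat.prime_two.dvd_of_dvd_pow h)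
  subst h2
  refine ⟨?_, ⟨ZMod.castHom (dvd_refl 2) F⟩⟩
  exact_mod_cast CharP.cast_eq_zero F 2

/-- a primitive cube root of unity -/
theorem exists_omega {F : Type*} [Field F] [Fintype F] (hF : Fintype.card F = 4) : ∃ w : F, w ^ 2 + w + 1 = 0 := by
  classical
  have h1 : ∃ w : F, w ≠ 0 ∧ w ≠ 1 := by
    by_contra hcon
    push Not at hcon
    have h2 : (Finset.univ : Finset F) ⊆ {0, 1} := by
      intro x _
      rw [Finset.mem_insert, Finset.mem_singleton]
      by_cases hx : x = 0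
      · exact Or.inl hx
      · exact Or.inr (hcon x hx)
    have h3 := Finset.card_le_card h2
    rw [Finset.card_univ, hF] at h3
    have h4 := Finset.card_le_two (a := (0 : F)) (b := 1)
    omega
  obtain ⟨w, h0, h1⟩ := h1
  refine ⟨w, ?_⟩
  have h2 : w ^ 3 = 1 := by
    have := FiniteField.pow_card_sub_one_eq_one w h0
    rwa [hF] at this
  have h3 : (w - 1) * (w ^ 2 + w + 1) = 0 := by linear_combination h2
  exact (mul_eq_zero.1 h3).resolve_left (sub_ne_zero.2 h1)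

theorem over_two {T : Type} [Group T] (h : OverTwo T) : Has73 T ∨ 17 ∣ Nat.card T ∨
    ∃ (F : Type) (_ : Field F) (_ : Fintype F), Fintype.card F = 4 ∧ Nonempty (T ≃* PSU 4 F 2) := by
  have mp : ∀ {S : Type} [Group S], T ≃* S → Has73 S → Has73 T := fun e h => h.map e.symm.toMonoidHom e.symm.injective
  rcases h with h | h | h | h | h | h | h | h
  · obtain ⟨F, _, _, n, hF, hn, ⟨e⟩⟩ := h
    obtain ⟨h2, ⟨ι⟩⟩ := exists_iota (F := F) (by rw [Nat.card_eq_fintype_card, hF])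
    exact Or.inl (mp e (has_psl ι hn))
  · obtain ⟨F, _, _, m, hF, hm, ⟨e⟩⟩ := h
    obtain ⟨h2, ⟨ι⟩⟩ := exists_iota (F := F) (by rw [Nat.card_eq_fintype_card, hF])
    exact Or.inl (mp e (has_psp ι hm))
  · obtain ⟨F, _, _, m, hF, hm, ⟨e⟩⟩ := h
    rcases (by omega : m = 2 ∨ 3 ≤ m) with rfl | h3
    · exact Or.inr (Or.inr ⟨F, inferInstance, inferInstance, hF, ⟨e⟩⟩)
    obtain ⟨h2, ⟨ι⟩⟩ := exists_iota (F := F) (by rw [Nat.card_eq_fintype_card, hF]; norm_num)
    obtain ⟨w, hw⟩ := exists_omega hF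
    have : CharP F 2 := CharTwo.of_one_ne_zero_of_two_eq_zero one_ne_zero h2
    exact Or.inl (mp e (has_psu ι (frobenius F 2) w hw (fun x => frobenius_def 2 x) h2 h3))
  · obtain ⟨F, _, _, m, hF, hm, ⟨e⟩⟩ := h
    obtain ⟨h2, ⟨ι⟩⟩ := exists_iota (F := F) (by rw [Nat.card_eq_fintype_card, hF])
    exact Or.inl (mp e (has_plus ι (by omega)))
  · obtain ⟨F, _, _, m, a, b, hF, hm, -, ⟨e⟩⟩ := h
    obtain ⟨h2, ⟨ι⟩⟩ := exists_iota (F := F) (by rw [Nat.card_eq_fintype_card, hF])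
    exact Or.inl (mp e (has_minus ι (by omega) a b))
  · obtain ⟨F, _, _, hF, h⟩ := h
    refine Or.inr (Or.inl ?_)
    rcases h with ⟨⟨e⟩⟩ | ⟨⟨e⟩⟩ | ⟨⟨e⟩⟩ | ⟨⟨e⟩⟩
    · rw [Nat.card_congr e.toEquiv, Cfsg.Agent.S1062.result hF]
      exact Dvd.dvd.mul_right (Dvd.dvd.mul_left (by norm_num) _) _
    · have h1 := Cfsg.Agent.S1063.result hF
      rw [← Nat.card_congr e.toEquiv] at h1
      norm_num at h1
      rw [h1]
      norm_num
    · have h1 := Cfsg.Agent.S1064.result hF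
      rw [← Nat.card_congr e.toEquiv] at h1
      norm_num at h1
      rw [h1]
      norm_num
    · rw [Nat.card_congr e.toEquiv, Cfsg.Agent.S1065.result hF]
      norm_num
  · obtain ⟨K, _, _, hK, ⟨e⟩⟩ := h
    refine Or.inr (Or.inl ?_)
    have h1 := Cfsg.Agent.S1066.result (K := K) (q := 2) Nat.prime_two.isPrimePow (by rw [hK]; norm_num)
    rw [← Nat.card_congr e.toEquiv] at h1
    norm_num at h1
    omega
  · obtain ⟨K, _, _, hK, ⟨e⟩⟩ := h
    obtain ⟨k, f, hk, hf⟩ := Cfsg.Agent.H564.TD.exists_g2 (K := K) (q := 2) Nat.prime_two.isPrimePow (by rw [hK]; norm_num)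
    have hfin : Finite k := inferInstance
    let _ : Fintype k := Fintype.ofFinite k
    obtain ⟨g, hg⟩ := Cfsg.Agent.H963.PQR.exists_sl3 (F := k)
    obtain ⟨h2, ⟨ι⟩⟩ := exists_iota (F := k) (by rw [hk])
    exact Or.inl (mp e (((hasL_SL ι le_rfl).map (f.comp g) (hf.comp hg)).has))

end Cfsg.Agent.H247.EPF
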