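import Cfsg.Agent.H889.Enum.Glue
import Cfsg.Agent.H446.EPX.TF4Tab
import Cfsg.Agent.H343.PG.TwF4Fifteen
import Cfsg.Agent.H380.AltSpec
import Cfsg.Agent.S1068
import Cfsg.Agent.S1072

/-!
# S5745, `Cross 2 (²F₄(q))`, `q ≥ 8` (helper247)
-/

set_option autoImplicit false
set_option linter.unusedSectionVars false

namespace Cfsg.Agent.H247.EPF

open Cfsg Cfsg.Agent.OrdDiv Cfsg.Agent.H902 Cfsg.Agent.H902.Names Cfsg.Agent.H290.ElReg Cfsg.Agent.H290.ElTab
open Cfsg.Agent.H209.EPX Cfsg.Agent.H542.EPX Cfsg.Agent.H252.EN Cfsg.Agent.H889.Enum Cfsg.Agent.H446.EPX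

/-- alternating groups of degree at least `8` have elements of order `15` -/
theorem alt_fifteen {S : Type*} [Group S] {n : ℕ} (h8 : 8 ≤ n) (e : S ≃* alternatingGroup (Fin n)) :
    ∃ x : S, orderOf x = 15 := by
  obtain ⟨g, hg⟩ := H380.AltSpec.exists_orderOf (n := n) {3, 5} (by simp; omega) (by
    intro a ha
    simp only [Multiset.insert_eq_cons, Multiset.mem_cons, Multiset.mem_singleton] at ha
    omega) (by
    simp only [Multiset.insert_eq_cons, Multiset.sum_cons, Multiset.sum_singleton, Multiset.card_cons,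
      Multiset.card_singleton]
    exact ⟨5, rfl⟩)
  refine ⟨e.symm g, ?_⟩
  rw [MulEquiv.orderOf_eq, hg]
  simp only [Multiset.insert_eq_cons, Multiset.lcm_cons, Multiset.lcm_singleton, normalize_eq]
  rfl

theorem ntf_eq (q : ℕ) : q ^ 12 * (q - 1) * (q ^ 3 + 1) * (q ^ 4 - 1) * (q ^ 6 + 1) = ntf q := rfl

/-- the socles of cross characteristic other than the Tits group -/
theorem cross_tf4_of (hg : Cfsg.Agent.H59.EP.TwoGen.{0}) (hK' : AllK) {K : Type} [Field K] [Fintype K] {m : ℕ}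
    (hm : 1 ≤ m) (hK : Fintype.card K = 2 ^ (2 * m + 1)) {H N : Subgroup ↥(Lie.twistedF4 K (2 ^ m))} {T : Type} [Group T]
    {e : N ≃* (Fin 1 → T)} (h : EPS H N e) (hsp : ¬ IsSporadicGroup T) (hL : ¬ IsLieTypeChar 2 T)
    (hTits : ¬ Lie.IsoTits T) : False := by
  have hfin : Finite ↥(Lie.twistedF4 K (2 ^ m)) := inferInstance
  have hsim : IsSimpleGroup ↥(Lie.twistedF4 K (2 ^ m)) := (Cfsg.Agent.S1072.result hm hK).1
  have f2 : Fact (Nat.Prime 2) := ⟨Nat.prime_two⟩
  have hc2 : CharP K 2 := Cfsg.Agent.ChevalleyStructure.TwF4.Twisted.charP_two hK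
  have hcG : Nat.card ↥(Lie.twistedF4 K (2 ^ m)) = ntf (2 ^ (2 * m + 1)) := Cfsg.Agent.S1068.result hK
  have hT : Finite T := finite_of e
  have hs : IsSimpleGroup T := h.simple
  have hna : ¬ ∀ a b : T, a * b = b * a := by
    obtain ⟨a, b, hab⟩ := h.nab
    exact fun hc => hab (hc a b)
  rcases cross_lie (p := 2) table (n := 52) (by norm_num) hna (hK' T hs)
    (fth_of (fth_tf4 K (2 ^ m)) (emb_injective e)) hL with h1 | h1 | h1 | h1
  · obtain ⟨n, hn, he⟩ := h1
    have h1 : 2 * Nat.card T = n.factorial := by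
      obtain ⟨i⟩ := he
      rw [Nat.card_congr i.toEquiv]
      exact card_alt (by omega)
    have h2 := alt_tf4 hn h1 hm hcG (ub_aut hg h (by rw [aut_alt hna hn he])) (dvd_G h)
    obtain ⟨i⟩ := he
    obtain ⟨x, hx⟩ := alt_fifteen (by omega) i
    exact Cfsg.Agent.H343.PG.TwF4Fifteen.not_exists_fifteen hK
      ⟨emb e x, by rw [orderOf_injective _ (emb_injective e), hx]⟩
  · exact hTits h1
  · exact hsp h1
  · obtain ⟨g, X, l, a, hgX, hRT, hA, hr, hlp⟩ := h1
    exact reg_tf4 hA hr hlp hm hcG (ub_aut hg h (by rw [aut_ouN hna hgX hRT hA])) (dvd_G h)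

/-- **the cross cell of `²F₄(q)`**, the Tits row as a hypothesis -/
theorem cross_tf4 (hg : Cfsg.Agent.H59.EP.TwoGen.{0}) (hK' : AllK) {K : Type} [Field K] [Fintype K] {m : ℕ} (hm : 1 ≤ m)
    (hK : Fintype.card K = 2 ^ (2 * m + 1))
    (rowT : ∀ (H N : Subgroup ↥(Lie.twistedF4 K (2 ^ m))) (T : Type) [Group T] [Finite T] (e : N ≃* (Fin 1 → T)),
      EPS H N e → Lie.IsoTits T → False) :
    Cross 2 ↥(Lie.twistedF4 K (2 ^ m)) := by
  intro H N T _ e h hsp hL
  have hfin : Finite ↥(Lie.twistedF4 K (2 ^ m)) := inferInstance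
  have hT : Finite T := finite_of e
  exact cross_tf4_of hg hK' hm hK h hsp hL fun hTi => rowT H N T e h hTi

end Cfsg.Agent.H247.EPF
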