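import Cfsg.Agent.H247.EPF.OverTwo
import Cfsg.Agent.H371.EPF.No73
import Cfsg.Agent.H343.PG.TwF4Fifteen
import Cfsg.Agent.H957.EPX.SocOf
import Cfsg.Agent.H104.EP.U42
import Cfsg.Agent.H845.AutUFour
import Cfsg.Agent.S1068
import Cfsg.Agent.S1072
import Cfsg.Agent.S0280

/-!
# `OwnQ2 (²F₄(q))`, `q ≥ 8` (helper247, S5745)
-/

set_option autoImplicit false
set_option linter.unusedSectionVars false

namespace Cfsg.Agent.H247.EPF

open Cfsg.Lie Cfsg.Agent.H542.EPX Cfsg.Agent.H209.EPX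

theorem q_mod (m : ℕ) : 2 ^ (2 * m + 1) % 17 = 2 ∨ 2 ^ (2 * m + 1) % 17 = 8 ∨ 2 ^ (2 * m + 1) % 17 = 15 ∨
    2 ^ (2 * m + 1) % 17 = 9 := by
  induction m with
  | zero => left; norm_num
  | succ n ih =>
    have e : 2 ^ (2 * (n + 1) + 1) = 4 * 2 ^ (2 * n + 1) := by ring
    omega

theorem not17 (m : ℕ) : ¬ 17 ∣ (2 ^ (2 * m + 1)) ^ 12 * (2 ^ (2 * m + 1) - 1) * ((2 ^ (2 * m + 1)) ^ 3 + 1) *
    ((2 ^ (2 * m + 1)) ^ 4 - 1) * ((2 ^ (2 * m + 1)) ^ 6 + 1) := by
  have hq := q_mod m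
  have h1 : 1 ≤ 2 ^ (2 * m + 1) := Nat.one_le_two_pow
  generalize 2 ^ (2 * m + 1) = q at hq h1 ⊢
  have h4 : 1 ≤ q ^ 4 := Nat.one_le_pow _ _ h1
  intro hd
  rw [← ZMod.natCast_eq_zero_iff] at hd
  push_cast [Nat.cast_sub h1, Nat.cast_sub h4] at hd
  have hr : (q : ZMod 17) = ((q % 17 : ℕ) : ZMod 17) := (ZMod.natCast_mod q 17).symm
  rw [hr] at hd
  rcases hq with h | h | h | h <;> rw [h] at hd <;> revert hd <;> decide

theorem card_u42 {F : Type*} [Field F] [Fintype F] (hF : Fintype.card F = 4) : Nat.card (PSU 4 F 2) = 25920 := by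
  have h1 := Cfsg.Agent.S0280.result (F := F) (q := 2) (by rw [hF]; norm_num) 4 (by norm_num)
  rw [Finset.prod_range_succ, Finset.prod_range_succ, Finset.prod_range_succ, Finset.prod_range_succ,
    Finset.prod_range_zero] at h1
  have e1 : ¬ Even 1 := by decide
  have e3 : ¬ Even 3 := by decide
  have e2 : Even 2 := by decide
  rw [if_pos (by decide : Even 0), if_neg e1, if_pos e2, if_neg e3] at h1
  norm_num at h1
  omega

theorem single_inj {k : ℕ} {T : Type*} [Group T] (i : Fin k) :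
    Function.Injective (MonoidHom.mulSingle (fun _ : Fin k => T) i) := by
  intro a b hab
  have h1 := congrFun hab i
  have h2 : ∀ c : T, (MonoidHom.mulSingle (fun _ : Fin k => T) i c) i = c := fun c => by
    rw [MonoidHom.mulSingle_apply]
    exact Pi.mulSingle_eq_same (M := fun _ : Fin k => T) i c
  rwa [h2, h2] at h1

theorem ownQ2_tf4 {K : Type} [Field K] [Fintype K] {m : ℕ} (hm : 1 ≤ m) (hK : Fintype.card K = 2 ^ (2 * m + 1)) :
    OwnQ2 ↥(twistedF4 K (2 ^ m)) := by
  intro H N T _ k e h hT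
  classical
  have hfin : Finite ↥(twistedF4 K (2 ^ m)) := inferInstance
  have hsim := (Cfsg.Agent.S1072.result hm hK).1
  have hcG := Cfsg.Agent.S1068.result hK
  let emb : (Fin k → T) →* ↥(twistedF4 K (2 ^ m)) := N.subtype.comp e.symm.toMonoidHom
  have hemb : Function.Injective emb := N.subtype_injective.comp e.symm.injective
  let i0 : Fin k := ⟨0, h.pos⟩
  let j : T →* ↥(twistedF4 K (2 ^ m)) := emb.comp (MonoidHom.mulSingle (fun _ : Fin k => T) i0)
  have hj : Function.Injective j := hemb.comp (single_inj i0)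
  rcases over_two hT with h1 | h1 | ⟨F, _, _, hF, ⟨i⟩⟩
  · obtain ⟨x, g, hx, hx7, hg⟩ := h1.map j hj
    have : Fact (Nat.Prime 7) := ⟨by norm_num⟩
    exact Cfsg.Agent.H371.EPF.no73 hm hK x g (orderOf_eq_prime hx7 hx) hg
  · apply not17 m
    rw [← hcG]
    exact h1.trans (Subgroup.card_dvd_of_injective j hj)
  · have hcT : Nat.card T = 25920 := by rw [Nat.card_congr i.toEquiv, card_u42 hF]
    rcases (by have := h.pos; omega : k = 1 ∨ 2 ≤ k) with hk | hk
    · subst hk
      have h2 := Cfsg.Agent.H104.EP.index_le_u42 (Cfsg.Agent.H957.EPX.ept_of_eps h) hF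
        ((Cfsg.Agent.H957.EPX.hasSoc_of_eps h).congr i)
      have h3 : Nat.card H ≤ 51840 := by
        have h4 := ((Cfsg.Agent.H957.EPX.hasSoc_of_eps h).congr i).card_le
        rwa [Cfsg.Agent.H845.AutUFour.card_mulAut_PSU hF, card_u42 hF] at h4
      have h5 := H.card_mul_index
      have h6 : Nat.card ↥(twistedF4 K (2 ^ m)) ≤ 51840 * 2 ^ 18 := by
        rw [← h5]
        exact Nat.mul_le_mul h3 h2
      rw [hcG] at h6
      have hq : 8 ≤ 2 ^ (2 * m + 1) := by
        calc 8 = 2 ^ 3 := by norm_num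
          _ ≤ 2 ^ (2 * m + 1) := Nat.pow_le_pow_right (by norm_num) (by omega)
      generalize 2 ^ (2 * m + 1) = q at hq h6
      have h7 : 8 ^ 12 * 1 * 1 * 1 * 1 ≤ q ^ 12 * (q - 1) * (q ^ 3 + 1) * (q ^ 4 - 1) * (q ^ 6 + 1) := by
        have h8 : 8 ^ 4 ≤ q ^ 4 := Nat.pow_le_pow_left hq 4
        exact Nat.mul_le_mul (Nat.mul_le_mul (Nat.mul_le_mul (Nat.mul_le_mul (Nat.pow_le_pow_left hq 12) (by omega))
          (by omega)) (by omega)) (by omega)
      have h8 := h7.trans h6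
      norm_num at h8
    · have hfT : Finite T := Finite.of_injective j hj
      have f3 : Fact (Nat.Prime 3) := ⟨Nat.prime_three⟩
      have f5 : Fact (Nat.Prime 5) := ⟨Nat.prime_five⟩
      obtain ⟨a, ha⟩ := exists_prime_orderOf_dvd_card' (G := T) 3 (by rw [hcT]; norm_num)
      obtain ⟨b, hb⟩ := exists_prime_orderOf_dvd_card' (G := T) 5 (by rw [hcT]; norm_num)
      let i1 : Fin k := ⟨1, hk⟩
      have hi : i0 ≠ i1 := by
        intro hc
        have := congrArg Fin.val hc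
        simp [i0, i1] at this
      have hA : orderOf (Pi.mulSingle i0 a : Fin k → T) = 3 := by
        rw [← ha]
        exact orderOf_injective (MonoidHom.mulSingle (fun _ : Fin k => T) i0) (single_inj i0) a
      have hB : orderOf (Pi.mulSingle i1 b : Fin k → T) = 5 := by
        rw [← hb]
        exact orderOf_injective (MonoidHom.mulSingle (fun _ : Fin k => T) i1) (single_inj i1) b
      have hcomm : Commute (Pi.mulSingle i0 a : Fin k → T) (Pi.mulSingle i1 b) :=
        Pi.mulSingle_commute (f := fun _ : Fin k => T) hi a b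
      have h15 : orderOf ((Pi.mulSingle i0 a : Fin k → T) * Pi.mulSingle i1 b) = 15 := by
        rw [hcomm.orderOf_mul_eq_mul_orderOf_of_coprime (by rw [hA, hB]; norm_num), hA, hB]
      exact Cfsg.Agent.H343.PG.TwF4Fifteen.not_exists_fifteen hK
        ⟨emb ((Pi.mulSingle i0 a : Fin k → T) * Pi.mulSingle i1 b), by rw [orderOf_injective emb hemb, h15]⟩

end Cfsg.Agent.H247.EPF
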