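import Cfsg.Agent.H247.EPF.Classical

/-!
# `7 : 3` in `PSU_{2m}(2)`, `m ≥ 3` (helper247)
-/

set_option autoImplicit false
set_option linter.unusedSectionVars false

namespace Cfsg.Agent.H247.EPF

open Matrix

section SUn

variable {F : Type*} [Field F] (ι : ZMod 2 →+* F) (σ : F →+* F) (w : F) (hw : w ^ 2 + w + 1 = 0)
  (hσ : ∀ x, σ x = x ^ 2)

/-- the base change -/
def PP (w : F) : Matrix (Fin 3 ⊕ Fin 3) (Fin 3 ⊕ Fin 3) F := fromBlocks 1 (w • 1) 1 (w ^ 2 • 1)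

/-- its inverse -/
def QQ (w : F) : Matrix (Fin 3 ⊕ Fin 3) (Fin 3 ⊕ Fin 3) F := fromBlocks (w ^ 2 • 1) (w • 1) 1 1

include hw in
theorem two_eq (h2 : (2 : F) = 0) : w ^ 2 = w + 1 ∧ w ^ 3 = 1 := by
  constructor
  · linear_combination hw - (w + 1) * h2
  · linear_combination (w - 1) * hw

include hw in
theorem QP (h2 : (2 : F) = 0) : QQ w * PP w = 1 := by
  obtain ⟨h3, h4⟩ := two_eq w hw h2
  rw [QQ, PP, fromBlocks_multiply, ← fromBlocks_one]
  simp only [Matrix.smul_mul, Matrix.one_mul, Matrix.mul_one, smul_smul, ← add_smul]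
  congr 1
  · conv_rhs => rw [← one_smul F (1 : Matrix (Fin 3) (Fin 3) F)]
    congr 1
    linear_combination h3 + w * h2
  · conv_rhs => rw [← zero_smul F (1 : Matrix (Fin 3) (Fin 3) F)]
    congr 1
    linear_combination w ^ 3 * h2
  · conv_rhs => rw [← zero_smul F (1 : Matrix (Fin 3) (Fin 3) F)]
    rw [← two_smul F (1 : Matrix (Fin 3) (Fin 3) F)]
    congr 1
  · conv_rhs => rw [← one_smul F (1 : Matrix (Fin 3) (Fin 3) F)]
    congr 1
    linear_combination h3 + w * h2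

include hw in
theorem PQ (h2 : (2 : F) = 0) : PP w * QQ w = 1 := mul_eq_one_comm.1 (QP w hw h2)

/-- the block matrix -/
def Dm (A : L3) : Matrix (Fin 3 ⊕ Fin 3) (Fin 3 ⊕ Fin 3) F := dbl (Matrix.SpecialLinearGroup.map ι A)

/-- the conjugated block matrix -/
def Wm (A : L3) : Matrix (Fin 3 ⊕ Fin 3) (Fin 3 ⊕ Fin 3) F := PP w * Dm ι A * QQ w

theorem Dm_one : Dm ι (1 : L3) = (1 : Matrix (Fin 3 ⊕ Fin 3) (Fin 3 ⊕ Fin 3) F) := by
  rw [Dm, map_one, dbl_one]

theorem Dm_mul (A B : L3) : Dm ι (A * B) = Dm ι A * Dm ι B := by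
  rw [Dm, map_mul, dbl_mul]; rfl

include hw in
theorem Wm_one (h2 : (2 : F) = 0) : Wm ι w (1 : L3) = 1 := by
  rw [Wm, Dm_one, Matrix.mul_one, PQ w hw h2]

include hw in
theorem Wm_mul (h2 : (2 : F) = 0) (A B : L3) : Wm ι w (A * B) = Wm ι w A * Wm ι w B := by
  rw [Wm, Wm, Wm, Dm_mul]
  calc PP w * (Dm ι A * Dm ι B) * QQ w = PP w * Dm ι A * 1 * Dm ι B * QQ w := by
        rw [Matrix.mul_one]; simp only [Matrix.mul_assoc]
    _ = PP w * Dm ι A * (QQ w * PP w) * Dm ι B * QQ w := by rw [QP w hw h2]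
    _ = _ := by simp only [Matrix.mul_assoc]

theorem Dm_det (A : L3) : (Dm ι A).det = 1 := by
  rw [Dm, dbl, Matrix.det_fromBlocks_zero₂₁, Matrix.det_transpose, Matrix.SpecialLinearGroup.det_coe,
    Matrix.SpecialLinearGroup.det_coe, mul_one]

include hw in
theorem Wm_det (h2 : (2 : F) = 0) (A : L3) : (Wm ι w A).det = 1 := by
  rw [Wm, Matrix.det_mul, Matrix.det_mul, Dm_det, mul_one, ← Matrix.det_mul, PQ w hw h2, Matrix.det_one]

include hσ in
theorem ι_fix (a : ZMod 2) : σ (ι a) = ι a := by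
  rw [hσ, ← map_pow]
  congr 1
  revert a
  decide

include hσ in
theorem Dm_map (A : L3) : (Dm ι A).map σ = Dm ι A := by
  rw [Dm, dbl, fromBlocks_map]
  have h1 : ∀ B : L3, ((Matrix.SpecialLinearGroup.map ι B : Matrix.SpecialLinearGroup (Fin 3) F) :
      Matrix (Fin 3) (Fin 3) F).map σ = ((Matrix.SpecialLinearGroup.map ι B : Matrix.SpecialLinearGroup (Fin 3) F) :
      Matrix (Fin 3) (Fin 3) F) := by
    intro B
    ext i j
    exact ι_fix ι σ hσ _
  rw [h1, Matrix.transpose_map, ← map_inv, h1, Matrix.map_zero _ (map_zero σ)]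

/-- the hyperbolic form -/
def JJ : Matrix (Fin 3 ⊕ Fin 3) (Fin 3 ⊕ Fin 3) F := fromBlocks 0 1 1 0

include hw hσ in
theorem PP_form (h2 : (2 : F) = 0) : (PP w)ᵀ * (PP w).map σ = JJ := by
  obtain ⟨h3, h4⟩ := two_eq w hw h2
  have e1 : (1 : Matrix (Fin 3) (Fin 3) F).map σ = 1 := Matrix.map_one σ (map_zero σ) (map_one σ)
  have e2 : ∀ a : F, (a • (1 : Matrix (Fin 3) (Fin 3) F)).map σ = (a ^ 2) • (1 : Matrix (Fin 3) (Fin 3) F) := by
    intro a
    ext i j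
    rw [Matrix.map_apply, Matrix.smul_apply, Matrix.smul_apply, smul_eq_mul, smul_eq_mul, map_mul, hσ a]
    congr 1
    exact congrFun (congrFun e1 i) j
  rw [PP, JJ, fromBlocks_transpose, fromBlocks_map, fromBlocks_multiply, e1, e2, e2]
  simp only [Matrix.transpose_smul, Matrix.transpose_one, Matrix.smul_mul, Matrix.one_mul, Matrix.mul_one, smul_smul,
    ← add_smul]
  congr 1
  · rw [← two_smul F (1 : Matrix (Fin 3) (Fin 3) F), h2, zero_smul]
  · conv_rhs => rw [← one_smul F (1 : Matrix (Fin 3) (Fin 3) F)]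
    congr 1
    linear_combination h3 + w * h4 + w * h2
  · conv_rhs => rw [← one_smul F (1 : Matrix (Fin 3) (Fin 3) F)]
    congr 1
    linear_combination h3 + w * h2
  · conv_rhs => rw [← zero_smul F (1 : Matrix (Fin 3) (Fin 3) F)]
    congr 1
    linear_combination (w ^ 3 + 1) * h4 + h4 + h2

theorem Dm_form (A : L3) : (Dm ι A)ᵀ * JJ * Dm ι A = (JJ : Matrix (Fin 3 ⊕ Fin 3) (Fin 3 ⊕ Fin 3) F) := by
  rw [Dm, dbl, JJ, fromBlocks_transpose, fromBlocks_multiply, fromBlocks_multiply]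
  simp only [Matrix.transpose_zero, Matrix.transpose_transpose, Matrix.mul_zero, Matrix.zero_mul, add_zero, zero_add,
    Matrix.mul_one]
  congr 1
  · rw [← Matrix.transpose_mul, coe_inv_mul, Matrix.transpose_one]
  · rw [coe_inv_mul]

include hw hσ in
theorem Wm_form (h2 : (2 : F) = 0) (A : L3) : (Wm ι w A)ᵀ * (Wm ι w A).map σ = 1 := by
  have h1 : (PP w * QQ w)ᵀ * (PP w * QQ w).map σ = 1 := by
    rw [PQ w hw h2, Matrix.transpose_one, Matrix.map_one σ (map_zero σ) (map_one σ), Matrix.mul_one]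
  rw [Matrix.transpose_mul, Matrix.map_mul] at h1
  rw [Wm, Matrix.transpose_mul, Matrix.transpose_mul, Matrix.map_mul, Matrix.map_mul, Dm_map ι σ hσ]
  calc (QQ w)ᵀ * ((Dm ι A)ᵀ * (PP w)ᵀ) * ((PP w).map σ * Dm ι A * (QQ w).map σ)
      = (QQ w)ᵀ * ((Dm ι A)ᵀ * ((PP w)ᵀ * (PP w).map σ) * Dm ι A) * (QQ w).map σ := by simp only [Matrix.mul_assoc]
    _ = (QQ w)ᵀ * ((PP w)ᵀ * (PP w).map σ) * (QQ w).map σ := by rw [PP_form σ w hw hσ h2, Dm_form]
    _ = 1 := by rw [← h1]; simp only [Matrix.mul_assoc]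

/-- the index set -/
def eu (k : ℕ) : (Fin 3 ⊕ Fin 3) ⊕ Fin k ≃ Fin (3 + 3 + k) :=
  (Equiv.sumCongr finSumFinEquiv (Equiv.refl _)).trans finSumFinEquiv

/-- the matrices in `SL_{6 + k}` -/
def blW (h2 : (2 : F) = 0) (k : ℕ) : L3 →* Matrix.SpecialLinearGroup (Fin (3 + 3 + k)) F where
  toFun A := ⟨Matrix.reindex (eu k) (eu k) (fromBlocks (Wm ι w A) 0 0 (1 : Matrix (Fin k) (Fin k) F)), by
      rw [Matrix.det_reindex_self, Matrix.det_fromBlocks_zero₂₁, Matrix.det_one, mul_one, Wm_det ι w hw h2]⟩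
  map_one' := by
    apply Subtype.ext
    show Matrix.reindex _ _ (fromBlocks (Wm ι w 1) 0 0 1) = 1
    rw [Wm_one ι w hw h2, fromBlocks_one]
    exact Matrix.submatrix_one_equiv _
  map_mul' A B := by
    apply Subtype.ext
    show Matrix.reindex _ _ (fromBlocks (Wm ι w (A * B)) 0 0 1) =
      Matrix.reindex _ _ (fromBlocks (Wm ι w A) 0 0 1) * Matrix.reindex _ _ (fromBlocks (Wm ι w B) 0 0 1)
    rw [Matrix.reindex_apply, Matrix.reindex_apply, Matrix.reindex_apply, Matrix.submatrix_mul_equiv,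
      fromBlocks_multiply, Wm_mul ι w hw h2]
    simp

include hσ in
theorem blW_mem (h2 : (2 : F) = 0) (k : ℕ) (A : L3) : blW ι w hw h2 k A ∈ SU (3 + 3 + k) F 2 := by
  rw [Cfsg.Agent.H155.Unit.mem_SU_iff_matrix σ hσ]
  show (Matrix.reindex (eu k) (eu k) (fromBlocks (Wm ι w A) 0 0 (1 : Matrix (Fin k) (Fin k) F)))ᵀ *
    (Matrix.reindex (eu k) (eu k) (fromBlocks (Wm ι w A) 0 0 (1 : Matrix (Fin k) (Fin k) F))).map σ = 1
  have e1 : (1 : Matrix (Fin k) (Fin k) F).map σ = 1 := Matrix.map_one σ (map_zero σ) (map_one σ)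
  rw [Matrix.reindex_apply, Matrix.transpose_submatrix, ← Matrix.submatrix_map, Matrix.submatrix_mul_equiv,
    fromBlocks_transpose, fromBlocks_map, fromBlocks_multiply, e1, Matrix.map_zero _ (map_zero σ),
    Wm_form ι σ w hw hσ h2]
  simp

theorem blW_ne (h2 : (2 : F) = 0) (k : ℕ) : blW ι w hw h2 k x0 ≠ 1 := by
  intro h
  have h1 : Matrix.reindex (eu k) (eu k) (fromBlocks (Wm ι w x0) 0 0 (1 : Matrix (Fin k) (Fin k) F)) = 1 :=
    congrArg Subtype.val h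
  have h3 : fromBlocks (Wm ι w x0) 0 0 (1 : Matrix (Fin k) (Fin k) F) = 1 := by
    apply (Matrix.reindex (eu k) (eu k)).injective
    rw [h1]
    exact (Matrix.submatrix_one_equiv _).symm
  rw [← fromBlocks_one, fromBlocks_inj] at h3
  have h4 : Dm ι x0 = 1 := by
    have h5 : QQ w * Wm ι w x0 * PP w = 1 := by rw [h3.1, Matrix.mul_one, QP w hw h2]
    rw [← h5, Wm]
    calc Dm ι x0 = 1 * Dm ι x0 * 1 := by rw [Matrix.mul_one, Matrix.one_mul]
      _ = (QQ w * PP w) * Dm ι x0 * (QQ w * PP w) := by rw [QP w hw h2]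
      _ = _ := by simp only [Matrix.mul_assoc]
  have h5 := dbl_inj h4
  have h6 := congrFun (congrFun (congrArg Subtype.val h5) 0) 0
  have h7 : ι ((x0 : Matrix (Fin 3) (Fin 3) (ZMod 2)) 0 0) = 1 := h6
  have h8 : (x0 : Matrix (Fin 3) (Fin 3) (ZMod 2)) 0 0 = 0 := rfl
  rw [h8, map_zero] at h7
  exact zero_ne_one h7

include ι hw hσ in
theorem has_psu (h2 : (2 : F) = 0) {m : ℕ} (hm : 3 ≤ m) : Has73 (PSU (2 * m) F 2) := by
  obtain ⟨k, rfl⟩ := Nat.exists_eq_add_of_le hm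
  have e : 2 * (3 + k) = 3 + 3 + 2 * k := by ring
  rw [e]
  have h : HasL (SU (3 + 3 + 2 * k) F 2) :=
    ⟨(blW ι w hw h2 (2 * k)).codRestrict _ (blW_mem ι σ w hw hσ h2 _), fun hc =>
      blW_ne ι w hw h2 _ (congrArg Subtype.val hc)⟩
  exact h.has.quot

end SUn

end Cfsg.Agent.H247.EPF
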